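import Mathlib
import Cfsg.Agent.Lib.Helper34.FrobSpec

set_option autoImplicit false

/-! Ladder CRIT (S3599): definitions. -/

namespace Cfsg.Agent.Lib.Helper68.Crit

/-- unbundled criticality: no proper section `H / N` has elements of order `p` and of order `r`. -/
def CritP (X : Type) [Group X] (p r : ℕ) : Prop :=
  ∀ H N : Subgroup X, N ≤ H → (∀ h ∈ H, ∀ n ∈ N, h * n * h⁻¹ ∈ N) →
    (∃ h ∈ H, h ∉ N ∧ h ^ p ∈ N) → (∃ h ∈ H, h ∉ N ∧ h ^ r ∈ N) → H = ⊤ ∧ N = ⊥

/-- the elements killed by `P` are closed under products. -/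
def Cl (P : ℕ) (X : Type) [Group X] : Prop :=
  ∀ x y : X, x ^ P = 1 → y ^ P = 1 → (x * y) ^ P = 1

/-- the data of one factor (a Frobenius group `p^a : r` with irreducible kernel). -/
structure FD (p r : ℕ) where
  X : Type
  grp : Group X
  fin : Fintype X
  card : ∃ a : ℕ, Fintype.card X = p ^ a * r
  spec : ∀ x : X, orderOf x = 1 ∨ orderOf x = p ∨ orderOf x = r
  exP : ∃ x : X, orderOf x = p
  exR : ∃ x : X, orderOf x = r
  crit : CritP X p r
  clP : Cl p X
  nclR : ¬ Cl r X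

attribute [instance] FD.grp FD.fin

/-- the concrete group `K ⋊ ⟨ζ⟩`. -/
abbrev XX (K : Type) [Field K] (ζ : Kˣ) : Type :=
  Multiplicative K ⋊[Cfsg.Agent.Lib.Helper34.actHom (Subgroup.zpowers ζ) K] (Subgroup.zpowers ζ)

instance instFiniteXX (K : Type) [Field K] [Finite K] (ζ : Kˣ) : Finite (XX K ζ) :=
  Finite.of_equiv _ SemidirectProduct.equivProd.symm

end Cfsg.Agent.Lib.Helper68.Crit
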