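import Mathlib
import Cfsg.Agent.Lib.Helper68.Crit.Defs

set_option autoImplicit false

namespace Cfsg.Agent.Lib.Helper68.Crit

open Cfsg.Agent.Lib.Helper34

variable (K : Type) [Field K] [Fintype K] (ζ : Kˣ) (p r : ℕ)

/-- [CARD1] `SemidirectProduct.card`, `Nat.card_zpowers`, `FiniteField.card`. -/
theorem card1 (hp : p.Prime) [CharP K p] (hζ : orderOf ζ = r) :
    ∃ a : ℕ, Nat.card (XX K ζ) = p ^ a * r := by
  obtain ⟨n, -, hn⟩ := FiniteField.card K p
  refine ⟨n, ?_⟩
  rw [SemidirectProduct.card, Nat.card_zpowers, hζ]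
  congr 1
  rw [← hn, ← Nat.card_eq_fintype_card]
  exact Nat.card_congr Multiplicative.toAdd

end Cfsg.Agent.Lib.Helper68.Crit
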