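import Mathlib
import Cfsg.Agent.Lib.Helper68.Crit.Defs

set_option autoImplicit false

/-! Ladder CRIT (S3599): rungs CL, CONV. -/

namespace Cfsg.Agent.Lib.Helper68.Crit

section prod

variable {s : ℕ} (X : Fin s → Type) [∀ j, Group (X j)]

theorem cl_pi (P : ℕ) (h : ∀ j, Cl P (X j)) : Cl P (∀ j, X j) := by
  intro x y hx hy
  funext j
  exact h j (x j) (y j) (congrFun hx j) (congrFun hy j)

theorem ncl_pi (P : ℕ) (j : Fin s) (h : ¬ Cl P (X j)) : ¬ Cl P (∀ j, X j) := by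
  intro hc
  apply h
  intro x y hx hy
  have h1 := hc (Pi.mulSingle j x) (Pi.mulSingle j y)
    (by rw [← Pi.mulSingle_pow, hx, Pi.mulSingle_one])
    (by rw [← Pi.mulSingle_pow, hy, Pi.mulSingle_one])
  have h2 := congrFun h1 j
  simpa using h2

theorem cl_of_coprime (P : ℕ) (Y : Type) [Group Y] [Fintype Y]
    (h : Nat.Coprime P (Fintype.card Y)) : Cl P Y := by
  have key : ∀ x : Y, x ^ P = 1 → x = 1 := by
    intro x hx
    have h1 : orderOf x ∣ P := orderOf_dvd_of_pow_eq_one hx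
    have h2 : orderOf x ∣ Fintype.card Y := orderOf_dvd_card
    have h3 : orderOf x = 1 := Nat.eq_one_of_dvd_coprimes h h1 h2
    exact orderOf_eq_one_iff.1 h3
  intro x y hx hy
  rw [key x hx, key y hy, one_mul, one_pow]

theorem cl_congr (P : ℕ) {Y Z : Type} [Group Y] [Group Z] (e : Y ≃* Z) (h : Cl P Y) : Cl P Z := by
  intro x y hx hy
  have h1 := h (e.symm x) (e.symm y) (by rw [← map_pow, hx, map_one]) (by rw [← map_pow, hy, map_one])
  rw [← map_mul, ← map_pow] at h1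
  have h2 := congrArg e h1
  simpa using h2

/-- [CONV] -/
theorem conv {Y : Type} [Group Y] (H : Subgroup Y) (N : Subgroup H) [N.Normal] (q : ℕ)
    (hq : q.Prime) (h : ∃ x : H ⧸ N, orderOf x = q) :
    ∃ h ∈ H, h ∉ N.map H.subtype ∧ h ^ q ∈ N.map H.subtype := by
  obtain ⟨x, hx⟩ := h
  obtain ⟨y, rfl⟩ := QuotientGroup.mk_surjective x
  have : Fact q.Prime := ⟨hq⟩
  rw [orderOf_eq_prime_iff] at hx
  obtain ⟨h1, h2⟩ := hx
  rw [← QuotientGroup.mk_pow, QuotientGroup.eq_one_iff] at h1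
  rw [Ne, QuotientGroup.eq_one_iff] at h2
  refine ⟨y.1, y.2, ?_, ⟨y ^ q, h1, rfl⟩⟩
  rintro ⟨z, hz, hzy⟩
  apply h2
  have : z = y := Subtype.ext hzy
  rwa [← this]

end prod

end Cfsg.Agent.Lib.Helper68.Crit
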