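import Mathlib
import Cfsg.Agent.Lib.Helper68.Crit.Defs

set_option autoImplicit false
set_option linter.unusedSectionVars false

/-! Ladder CRIT (S3599), rung IRR (helper30). -/

namespace Cfsg.Agent.Lib.Helper68.Crit

open Cfsg.Agent.Lib.Helper34

theorem irr (K : Type) [Field K] (ζ : Kˣ) (hgen : Subring.closure {(ζ : K)} = ⊤)
    (U : AddSubgroup K) (hU : ∀ u ∈ U, (ζ : K) * u ∈ U) (hne : U ≠ ⊥) : U = ⊤ := by
  let S : Subring K :=
    { carrier := {s | ∀ u ∈ U, s * u ∈ U}
      mul_mem' := fun {a b} ha hb u hu => by rw [mul_assoc]; exact ha _ (hb u hu)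
      one_mem' := fun u hu => by rwa [one_mul]
      add_mem' := fun {a b} ha hb u hu => by rw [add_mul]; exact U.add_mem (ha u hu) (hb u hu)
      zero_mem' := fun u hu => by rw [zero_mul]; exact U.zero_mem
      neg_mem' := fun {a} ha u hu => by rw [neg_mul]; exact U.neg_mem (ha u hu) }
  have hS : S = ⊤ := by
    rw [eq_top_iff, ← hgen, Subring.closure_le]
    intro x hx
    rw [Set.mem_singleton_iff] at hx
    subst hx
    exact hU
  obtain ⟨u, huU, hu0⟩ : ∃ u : K, u ∈ U ∧ u ≠ 0 := by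
    obtain ⟨u, hu⟩ := AddSubgroup.ne_bot_iff_exists_ne_zero.1 hne
    exact ⟨(u : K), u.2, fun h => hu (Subtype.ext h)⟩
  rw [eq_top_iff]
  intro v _
  have h1 : v * u⁻¹ ∈ S := hS ▸ Subring.mem_top _
  have h2 := h1 u huU
  rwa [inv_mul_cancel_right₀ hu0] at h2

end Cfsg.Agent.Lib.Helper68.Crit
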