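import Mathlib
import Cfsg.Agent.Lib.Helper68.Crit.Defs
import Cfsg.Agent.Lib.Helper68.Crit.IRR

set_option autoImplicit false
set_option linter.unusedSectionVars false

/-! Ladder CRIT (S3599), rung NORM1 (helper30). -/

namespace Cfsg.Agent.Lib.Helper68.Crit

open Cfsg.Agent.Lib.Helper34

section conc

variable (K : Type) [Field K] [Fintype K] (ζ : Kˣ) (p r : ℕ)

/-- conjugation of the kernel -/
theorem norm1_conj (x : XX K ζ) (w : Multiplicative K) :
    x * SemidirectProduct.inl w * x⁻¹
      = SemidirectProduct.inl (actHom (Subgroup.zpowers ζ) K x.right w) := by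
  ext
  · simp [mul_comm]
  · simp

/-- the additive subgroup of the kernel cut out by a subgroup -/
def norm1U (H : Subgroup (XX K ζ)) : AddSubgroup K where
  carrier := {w | (SemidirectProduct.inl (Multiplicative.ofAdd w) : XX K ζ) ∈ H}
  add_mem' := fun {a b} ha hb => by
    show (SemidirectProduct.inl (Multiplicative.ofAdd (a + b)) : XX K ζ) ∈ H
    rw [ofAdd_add, map_mul]
    exact H.mul_mem ha hb
  zero_mem' := by
    show (SemidirectProduct.inl (Multiplicative.ofAdd (0 : K)) : XX K ζ) ∈ H
    rw [ofAdd_zero, map_one]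
    exact H.one_mem
  neg_mem' := fun {a} ha => by
    show (SemidirectProduct.inl (Multiplicative.ofAdd (-a)) : XX K ζ) ∈ H
    rw [ofAdd_neg, map_inv]
    exact H.inv_mem ha

theorem norm1_mem_U (H : Subgroup (XX K ζ)) (w : K) :
    w ∈ norm1U K ζ H ↔ (SemidirectProduct.inl (Multiplicative.ofAdd w) : XX K ζ) ∈ H := Iff.rfl

/-- if `H` is stable under conjugation by some `g` with `g.right = ζ` and meets the kernel, it
contains the kernel -/
theorem norm1_core (hgen : Subring.closure {(ζ : K)} = ⊤) (H : Subgroup (XX K ζ))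
    (g : XX K ζ) (hg : ((g.right : Kˣ) : K) = ζ) (hst : ∀ h ∈ H, g * h * g⁻¹ ∈ H)
    (w : K) (hw : w ≠ 0) (hwH : (SemidirectProduct.inl (Multiplicative.ofAdd w) : XX K ζ) ∈ H) :
    (SemidirectProduct.inl : Multiplicative K →* XX K ζ).range ≤ H := by
  have hU : norm1U K ζ H = ⊤ := by
    apply irr K ζ hgen
    · intro u hu
      rw [norm1_mem_U] at hu ⊢
      have h1 := hst _ hu
      rw [norm1_conj, actHom_apply] at h1
      have h2 : g.right • Multiplicative.toAdd (Multiplicative.ofAdd u) = (ζ : K) * u := by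
        rw [toAdd_ofAdd, Subgroup.smul_def, Units.smul_def, smul_eq_mul, hg]
      rwa [h2] at h1
    · intro h
      have : w ∈ norm1U K ζ H := hwH
      rw [h, AddSubgroup.mem_bot] at this
      exact hw this
  rintro _ ⟨v, rfl⟩
  have : Multiplicative.toAdd v ∈ norm1U K ζ H := by rw [hU]; exact AddSubgroup.mem_top _
  rw [norm1_mem_U] at this
  simpa using this

theorem norm1 (hgen : Subring.closure {(ζ : K)} = ⊤) (N : Subgroup (XX K ζ)) [N.Normal]
    (hN : N ≠ ⊥) : (SemidirectProduct.inl : Multiplicative K →* XX K ζ).range ≤ N := by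
  obtain ⟨m, hmN, hm1⟩ : ∃ m : XX K ζ, m ∈ N ∧ m ≠ 1 := by
    obtain ⟨m, hm⟩ := Subgroup.ne_bot_iff_exists_ne_one.1 hN
    exact ⟨(m : XX K ζ), m.2, fun h => hm (Subtype.ext h)⟩
  have hnorm : ∀ g : XX K ζ, ∀ h ∈ N, g * h * g⁻¹ ∈ N := fun g h hh =>
    (inferInstance : N.Normal).conj_mem h hh g
  have key : ∃ w : K, w ≠ 0 ∧ (SemidirectProduct.inl (Multiplicative.ofAdd w) : XX K ζ) ∈ N := by
    by_cases hd : m.right = 1
    · refine ⟨Multiplicative.toAdd m.left, ?_, ?_⟩
      · intro h
        apply hm1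
        ext
        · have : m.left = 1 := by
            rw [← ofAdd_toAdd m.left, h, ofAdd_zero]
          simpa using this
        · simp [hd]
      · have : (SemidirectProduct.inl (Multiplicative.ofAdd (Multiplicative.toAdd m.left)) : XX K ζ)
            = m := by
          ext
          · simp
          · simp [hd]
        rw [this]; exact hmN
    · refine ⟨1 - ((m.right : Kˣ) : K), ?_, ?_⟩
      · intro h
        apply hd
        have h1 : ((m.right : Kˣ) : K) = 1 := (sub_eq_zero.1 h).symm
        exact Subtype.ext (Units.ext (by simpa using h1))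
      · have h1 : (SemidirectProduct.inl (Multiplicative.ofAdd (1 : K)) : XX K ζ) * m
            * (SemidirectProduct.inl (Multiplicative.ofAdd (1 : K)) : XX K ζ)⁻¹ * m⁻¹ ∈ N :=
          N.mul_mem (hnorm _ _ hmN) (N.inv_mem hmN)
        have h2 : (SemidirectProduct.inl (Multiplicative.ofAdd (1 : K)) : XX K ζ) * m
            * (SemidirectProduct.inl (Multiplicative.ofAdd (1 : K)) : XX K ζ)⁻¹ * m⁻¹
            = SemidirectProduct.inl (Multiplicative.ofAdd (1 - ((m.right : Kˣ) : K))) := by
          rw [← map_inv, mul_assoc, mul_assoc, ← mul_assoc m, norm1_conj, ← map_mul, actHom_apply]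
          congr 1
          rw [← ofAdd_neg, toAdd_ofAdd, Subgroup.smul_def, Units.smul_def, smul_eq_mul, ← ofAdd_add]
          congr 1
          ring
        rwa [h2] at h1
  obtain ⟨w, hw, hwN⟩ := key
  exact norm1_core K ζ hgen N
    (SemidirectProduct.inr ⟨ζ, Subgroup.mem_zpowers ζ⟩) (by simp) (fun h hh => hnorm _ h hh) w hw hwN

end conc

end Cfsg.Agent.Lib.Helper68.Crit
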