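import Mathlib
import Cfsg.Agent.Lib.Helper68.Crit.Defs

set_option autoImplicit false

namespace Cfsg.Agent.Lib.Helper68.Crit

open Cfsg.Agent.Lib.Helper34

variable (K : Type) [Field K] [Fintype K] (ζ : Kˣ) (p r : ℕ)

/-- [RIGHT1] x^p = 1 ⇒ x.right^p = 1 = x.right^r ⇒ x.right = 1. -/
theorem right1 (hne : Nat.Coprime p r) (hζ : orderOf ζ = r) (x : XX K ζ) (hx : x ^ p = 1) :
    x.right = 1 := by
  have h1 : x.right ^ p = 1 := by
    have := congrArg SemidirectProduct.rightHom hx
    rwa [map_pow, map_one] at this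
  have h2 : x.right ^ r = 1 := by
    have := pow_card_eq_one' (G := Subgroup.zpowers ζ) (x := x.right)
    rwa [Nat.card_zpowers, hζ] at this
  exact orderOf_eq_one_iff.1 (Nat.eq_one_of_dvd_coprimes hne (orderOf_dvd_of_pow_eq_one h1)
    (orderOf_dvd_of_pow_eq_one h2))

/-- an element with trivial right component is killed by `p` -/
theorem right1_pow [CharP K p] (z : XX K ζ) (hz : z.right = 1) : z ^ p = 1 := by
  have hx : z = SemidirectProduct.inl z.left := by
    ext
    · simp
    · simp [hz]
  rw [hx, ← map_pow]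
  have : z.left ^ p = 1 := by
    have h : p • (Multiplicative.toAdd z.left) = 0 := by
      rw [nsmul_eq_mul, CharP.cast_eq_zero, zero_mul]
    exact h
  rw [this, map_one]

/-- [CL1] from right1: x, y ∈ range inl; (inl v)^p = inl (p • v) = 1. -/
theorem cl1 (hne : Nat.Coprime p r) [CharP K p] (hζ : orderOf ζ = r) : Cl p (XX K ζ) := by
  intro x y hx hy
  apply right1_pow
  rw [SemidirectProduct.mul_right, right1 K ζ p r hne hζ x hx, right1 K ζ p r hne hζ y hy, one_mul]

end Cfsg.Agent.Lib.Helper68.Crit
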