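import Mathlib
import Cfsg.Agent.Lib.Helper68.Crit.Defs

set_option autoImplicit false

/-! Ladder CRIT (S3599): rung SPEC1. -/

namespace Cfsg.Agent.Lib.Helper68.Crit

open Cfsg.Agent.Lib.Helper34

section conc

variable (K : Type) [Field K] [Fintype K] (ζ : Kˣ) (p r : ℕ)

/-- [SPEC1] -/
theorem spec1 (hp : p.Prime) (hr : r.Prime) [CharP K p] (hζ : orderOf ζ = r) :
    (∀ x : XX K ζ, orderOf x = 1 ∨ orderOf x = p ∨ orderOf x = r) ∧
      (∃ x : XX K ζ, orderOf x = p) ∧ (∃ x : XX K ζ, orderOf x = r) := by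
  have hsp := frob_spectrum (K := Subgroup.zpowers ζ) (V := K) p hp
    (by
      intro v
      rw [nsmul_eq_mul, CharP.cast_eq_zero, zero_mul])
    ⟨1, one_ne_zero⟩
    (by
      intro k hk v hv
      have h1 : ((k : Kˣ) : K) * v = v := hv
      have h2 : (((k : Kˣ) : K) - 1) * v = 0 := by rw [sub_mul, h1, one_mul, sub_self]
      rcases mul_eq_zero.1 h2 with h3 | h3
      · exfalso
        apply hk
        apply Subtype.ext
        apply Units.ext
        exact sub_eq_zero.1 h3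
      · exact h3)
  have hC : ∀ c : Subgroup.zpowers ζ, orderOf c = 1 ∨ orderOf c = r := by
    intro c
    have h1 : orderOf c ∣ Nat.card (Subgroup.zpowers ζ) := orderOf_dvd_natCard c
    rw [Nat.card_zpowers, hζ] at h1
    exact (Nat.dvd_prime hr).1 h1
  refine ⟨?_, ?_, ?_⟩
  · intro x
    have h1 : orderOf x ∈ Set.range (orderOf : XX K ζ → ℕ) := ⟨x, rfl⟩
    rw [hsp] at h1
    rcases h1 with h1 | ⟨c, hc⟩
    · exact Or.inr (Or.inl h1)
    · rcases hC c with h2 | h2
      · exact Or.inl (by rw [← hc, h2])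
      · exact Or.inr (Or.inr (by rw [← hc, h2]))
  · have h1 : p ∈ Set.range (orderOf : XX K ζ → ℕ) := by
      rw [hsp]; exact Set.mem_insert _ _
    exact h1
  · have h1 : r ∈ Set.range (orderOf : XX K ζ → ℕ) := by
      rw [hsp]
      refine Set.mem_insert_of_mem _ ⟨⟨ζ, Subgroup.mem_zpowers ζ⟩, ?_⟩
      rw [← hζ]
      exact Subgroup.orderOf_mk ζ _
    exact h1

end conc

end Cfsg.Agent.Lib.Helper68.Crit
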