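import Mathlib
import Cfsg.Agent.Lib.Helper68.Crit.Defs
import Cfsg.Agent.Lib.Helper68.Crit.NORM1

set_option autoImplicit false
set_option linter.unusedSectionVars false

/-! Ladder CRIT (S3599), rung TOP1 (helper30). -/

namespace Cfsg.Agent.Lib.Helper68.Crit

open Cfsg.Agent.Lib.Helper34

section conc

variable (K : Type) [Field K] [Fintype K] (ζ : Kˣ) (p r : ℕ)

theorem top1_right (hne : Nat.Coprime p r) (hζ : orderOf ζ = r) (x : XX K ζ) (hx : x ^ p = 1) :
    x.right = 1 := by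
  have h1 : x.right ^ p = 1 := by
    have := congrArg (SemidirectProduct.rightHom : XX K ζ →* _) hx
    rw [map_pow, map_one] at this
    exact this
  have h2 : x.right ^ r = 1 := by
    have : x.right ^ Nat.card (Subgroup.zpowers ζ) = 1 := pow_card_eq_one'
    rwa [Nat.card_zpowers, hζ] at this
  have h3 := pow_gcd_eq_one.2 ⟨h1, h2⟩
  rwa [Nat.Coprime.gcd_eq_one hne, pow_one] at h3

theorem top1_inl_pow [CharP K p] (v : Multiplicative K) :
    (SemidirectProduct.inl v : XX K ζ) ^ p = 1 := by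
  rw [← map_pow]
  have : v ^ p = 1 := by
    rw [← ofAdd_toAdd v, ← ofAdd_nsmul, nsmul_eq_mul, CharP.cast_eq_zero, zero_mul, ofAdd_zero]
  rw [this, map_one]

theorem top1_eq_inl (x : XX K ζ) (hx : x.right = 1) : x = SemidirectProduct.inl x.left := by
  ext
  · simp
  · simp [hx]

theorem top1 (hp : p.Prime) (hr : r.Prime) (hne : p ≠ r) [CharP K p] (hζ : orderOf ζ = r)
    (hgen : Subring.closure {(ζ : K)} = ⊤) (H : Subgroup (XX K ζ))
    (h1 : ∃ h ∈ H, orderOf h = p) (h2 : ∃ h ∈ H, orderOf h = r) : H = ⊤ := by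
  have hcop : Nat.Coprime p r := (Nat.coprime_primes hp hr).2 hne
  obtain ⟨a, haH, hao⟩ := h1
  obtain ⟨b, hbH, hbo⟩ := h2
  have har : a.right = 1 := top1_right K ζ p r hcop hζ a (by rw [← hao]; exact pow_orderOf_eq_one a)
  have ha1 : a ≠ 1 := by
    intro h
    rw [h, orderOf_one] at hao
    exact hp.one_lt.ne hao
  have hbr : b.right ≠ 1 := by
    intro h
    have h3 : b ^ p = 1 := by
      rw [top1_eq_inl K ζ b h]; exact top1_inl_pow K ζ p _
    have h4 : r ∣ p := by rw [← hbo]; exact orderOf_dvd_of_pow_eq_one h3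
    exact hne ((Nat.prime_dvd_prime_iff_eq hr hp).1 h4).symm
  -- `b.right` generates `zpowers ζ`
  have hcard : Nat.card (Subgroup.zpowers ζ) = r := by rw [Nat.card_zpowers, hζ]
  have : Fact r.Prime := ⟨hr⟩
  have hgenb : ∀ c : Subgroup.zpowers ζ, ∃ g ∈ H, g.right = c := by
    intro c
    have hc : c ∈ Subgroup.zpowers b.right := mem_zpowers_of_prime_card hcard hbr
    obtain ⟨k, hk⟩ := Subgroup.mem_zpowers_iff.1 hc
    refine ⟨b ^ k, H.zpow_mem hbH k, ?_⟩
    rw [← hk]
    exact map_zpow (SemidirectProduct.rightHom : XX K ζ →* _) b k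
  obtain ⟨g, hgH, hg⟩ := hgenb ⟨ζ, Subgroup.mem_zpowers ζ⟩
  have hker : (SemidirectProduct.inl : Multiplicative K →* XX K ζ).range ≤ H := by
    apply norm1_core K ζ hgen H g (by rw [hg]) (fun h hh => H.mul_mem (H.mul_mem hgH hh) (H.inv_mem hgH))
      (Multiplicative.toAdd a.left)
    · intro h
      apply ha1
      rw [top1_eq_inl K ζ a har]
      have : a.left = 1 := by rw [← ofAdd_toAdd a.left, h, ofAdd_zero]
      rw [this, map_one]
    · rw [ofAdd_toAdd, ← top1_eq_inl K ζ a har]; exact haH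
  rw [eq_top_iff]
  intro x _
  obtain ⟨g', hg'H, hg'⟩ := hgenb x.right
  have hx : x = SemidirectProduct.inl (x.left * g'.left⁻¹) * g' := by
    ext
    · simp
    · simp [hg']
  rw [hx]
  exact H.mul_mem (hker ⟨_, rfl⟩) hg'H

end conc

end Cfsg.Agent.Lib.Helper68.Crit
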