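import Mathlib
import Cfsg.Agent.Lib.Helper68.Crit.Defs
import Cfsg.Agent.Lib.Helper68.Crit.SPEC1
import Cfsg.Agent.Lib.Helper68.Crit.RIGHT1
import Cfsg.Agent.Lib.Helper68.Crit.TOP1
import Cfsg.Agent.Lib.Helper68.Crit.NORM1

set_option autoImplicit false

/-! Ladder CRIT (S3599): rung CRIT1. -/

namespace Cfsg.Agent.Lib.Helper68.Crit

open Cfsg.Agent.Lib.Helper34

section conc

variable (K : Type) [Field K] [Fintype K] (ζ : Kˣ) (p r : ℕ)

/-- [CRIT1] -/
theorem crit1 (hp : p.Prime) (hr : r.Prime) (hne : p ≠ r) [CharP K p] (hζ : orderOf ζ = r)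
    (hgen : Subring.closure {(ζ : K)} = ⊤) : CritP (XX K ζ) p r := by
  have hcop : Nat.Coprime p r := (Nat.coprime_primes hp hr).2 hne
  obtain ⟨hspec, -, -⟩ := spec1 K ζ p r hp hr hζ
  -- an element outside N with a-th power in N and order b (coprime) is impossible
  have key : ∀ (N : Subgroup (XX K ζ)) (h : XX K ζ) (a b : ℕ), Nat.Coprime a b → h ∉ N → h ^ a ∈ N →
      orderOf h ≠ b := by
    intro N h a b hab hN ha hb
    apply hN
    have h1 : h ^ b = 1 := by rw [← hb]; exact pow_orderOf_eq_one h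
    have h2 : h ^ (Nat.gcd a b) ∈ N := by
      have h3 : (h ^ (Nat.gcd a b : ℕ) : XX K ζ) = h ^ ((Nat.gcd a b : ℕ) : ℤ) := (zpow_natCast h _).symm
      rw [h3, Nat.gcd_eq_gcd_ab, zpow_add, zpow_mul, zpow_mul, zpow_natCast, zpow_natCast, h1, one_zpow,
        mul_one]
      exact N.zpow_mem ha _
    rw [hab, pow_one] at h2
    exact h2
  intro H N hNH hnorm ⟨h, hH, hN, hpN⟩ ⟨h', hH', hN', hrN⟩
  have ho : orderOf h = p := by
    rcases hspec h with h1 | h1 | h1
    · exfalso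
      rw [orderOf_eq_one_iff] at h1
      exact hN (h1 ▸ N.one_mem)
    · exact h1
    · exact absurd h1 (key N h p r hcop hN hpN)
  have ho' : orderOf h' = r := by
    rcases hspec h' with h1 | h1 | h1
    · exfalso
      rw [orderOf_eq_one_iff] at h1
      exact hN' (h1 ▸ N.one_mem)
    · exact absurd h1 (key N h' r p hcop.symm hN' hrN)
    · exact h1
  have htop : H = ⊤ := top1 K ζ p r hp hr hne hζ hgen H ⟨h, hH, ho⟩ ⟨h', hH', ho'⟩
  refine ⟨htop, ?_⟩
  by_contra hbot
  have hnormal : N.Normal := ⟨fun n hn g => hnorm g (htop ▸ Subgroup.mem_top g) n hn⟩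
  have hle := norm1 K ζ hgen N hbot
  apply hN
  apply hle
  have hr1 : h.right = 1 := right1 K ζ p r hcop hζ h (by rw [← ho]; exact pow_orderOf_eq_one h)
  refine ⟨h.left, ?_⟩
  ext
  · simp
  · simp [hr1]

end conc

end Cfsg.Agent.Lib.Helper68.Crit
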