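import Mathlib
import Cfsg.Agent.Lib.Helper68.Crit.Defs

set_option autoImplicit false

/-! Ladder CRIT (S3599): rungs ORD, COMP. -/

namespace Cfsg.Agent.Lib.Helper68.Crit

section prod

variable {s : ℕ} (X : Fin s → Type) [∀ j, Group (X j)] [∀ j, Fintype (X j)]

/-- [ORD] -/
theorem ord (hcop : ∀ i j, i ≠ j → Nat.Coprime (Fintype.card (X i)) (Fintype.card (X j)))
    (x : ∀ j, X j) : orderOf x = ∏ j, orderOf (x j) := by
  apply Nat.dvd_antisymm
  · apply orderOf_dvd_of_pow_eq_one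
    funext j
    have h1 : orderOf (x j) ∣ ∏ j, orderOf (x j) := Finset.dvd_prod_of_mem _ (Finset.mem_univ j)
    exact orderOf_dvd_iff_pow_eq_one.1 h1
  · apply Finset.prod_dvd_of_isRelPrime
    · intro i _ j _ hij
      change IsRelPrime (orderOf (x i)) (orderOf (x j))
      rw [← Nat.coprime_iff_isRelPrime]
      exact Nat.Coprime.coprime_dvd_left orderOf_dvd_card
        (Nat.Coprime.coprime_dvd_right orderOf_dvd_card (hcop i j hij))
    · intro j _
      apply orderOf_dvd_of_pow_eq_one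
      exact congrFun (pow_orderOf_eq_one x) j

/-- [COMP] -/
theorem comp (hcop : ∀ i j, i ≠ j → Nat.Coprime (Fintype.card (X i)) (Fintype.card (X j)))
    (j : Fin s) : ∃ e : ℕ, e ≡ 1 [MOD Fintype.card (X j)] ∧
      ∀ x : ∀ j, X j, x ^ e = Pi.mulSingle j (x j) := by
  have h1 : Nat.Coprime (Fintype.card (X j)) (∏ i ∈ Finset.univ.erase j, Fintype.card (X i)) := by
    apply Nat.Coprime.prod_right
    intro i hi
    exact hcop j i (Finset.ne_of_mem_erase hi).symm
  obtain ⟨e, he1, he0⟩ := Nat.chineseRemainder h1 1 0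
  refine ⟨e, he1, ?_⟩
  intro x
  funext i
  by_cases hi : i = j
  · subst hi
    rw [Pi.mulSingle_eq_same, Pi.pow_apply]
    have h2 : e ≡ 1 [MOD orderOf (x i)] := he1.of_dvd orderOf_dvd_card
    rw [pow_eq_pow_iff_modEq.2 h2, pow_one]
  · rw [Pi.mulSingle_eq_of_ne hi, Pi.pow_apply]
    have h2 : Fintype.card (X i) ∣ e := by
      have h3 : Fintype.card (X i) ∣ ∏ i ∈ Finset.univ.erase j, Fintype.card (X i) :=
        Finset.dvd_prod_of_mem _ (Finset.mem_erase.2 ⟨hi, Finset.mem_univ i⟩)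
      exact h3.trans ((Nat.modEq_zero_iff_dvd).1 he0)
    obtain ⟨k, rfl⟩ := h2
    rw [pow_mul, pow_card_eq_one, one_pow]

end prod

end Cfsg.Agent.Lib.Helper68.Crit
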