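import Mathlib
import Cfsg.Agent.Lib.Helper68.Crit.Defs
import Cfsg.Agent.Lib.Helper68.Crit.ORD

set_option autoImplicit false

/-! Ladder CRIT (S3599): rung CRITP. -/

namespace Cfsg.Agent.Lib.Helper68.Crit

section prod

variable {s : ℕ} (X : Fin s → Type) [∀ j, Group (X j)] [∀ j, Fintype (X j)]

theorem critp_aux (hcop : ∀ i j, i ≠ j → Nat.Coprime (Fintype.card (X i)) (Fintype.card (X j)))
    (H N : Subgroup (∀ j, X j)) (j : Fin s) (q : ℕ) (hq : q ∣ Fintype.card (X j))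
    (h1 : ∃ h ∈ H, h ∉ N ∧ h ^ q ∈ N) :
    ∃ h ∈ H.comap (MonoidHom.mulSingle X j), h ∉ N.comap (MonoidHom.mulSingle X j) ∧
      h ^ q ∈ N.comap (MonoidHom.mulSingle X j) := by
  obtain ⟨e, he, hcomp⟩ := comp X hcop j
  obtain ⟨h, hH, hN, hqN⟩ := h1
  refine ⟨h j, ?_, ?_, ?_⟩
  · rw [Subgroup.mem_comap]
    change Pi.mulSingle j (h j) ∈ H
    rw [← hcomp]
    exact H.pow_mem hH e
  · rw [Subgroup.mem_comap]
    change Pi.mulSingle j (h j) ∉ N
    rw [← hcomp]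
    intro hcon
    apply hN
    have h2 : e ≡ 1 [MOD q] := he.of_dvd hq
    -- 1 ≤ e or q = 1
    rcases Nat.eq_zero_or_pos e with h0 | hpos
    · -- e = 0 : then q ∣ 1
      rw [h0] at h2
      have h3 : q ∣ 1 := (Nat.modEq_zero_iff_dvd.1 h2.symm)
      have h4 : q = 1 := Nat.dvd_one.1 h3
      rw [h4, pow_one] at hqN
      exact hqN
    · have h3 : q ∣ e - 1 := (Nat.modEq_iff_dvd' hpos).1 h2.symm
      obtain ⟨t, ht⟩ := h3
      have h4 : e = q * t + 1 := by omega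
      rw [h4, pow_succ, pow_mul] at hcon
      have h5 : (h ^ q) ^ t ∈ N := N.pow_mem hqN t
      exact (Subgroup.mul_mem_cancel_left N h5).1 hcon
  · rw [Subgroup.mem_comap, map_pow]
    change (Pi.mulSingle j (h j)) ^ q ∈ N
    rw [← hcomp, ← pow_mul, mul_comm, pow_mul]
    exact N.pow_mem hqN e

/-- [CRITP] -/
theorem critp (hcop : ∀ i j, i ≠ j → Nat.Coprime (Fintype.card (X i)) (Fintype.card (X j)))
    (q q' : Fin s → ℕ) (hq : ∀ j, q j ∣ Fintype.card (X j)) (hq' : ∀ j, q' j ∣ Fintype.card (X j))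
    (hcrit : ∀ j, CritP (X j) (q j) (q' j)) (H N : Subgroup (∀ j, X j)) (hNH : N ≤ H)
    (hnorm : ∀ h ∈ H, ∀ n ∈ N, h * n * h⁻¹ ∈ N) (h1 : ∀ j, ∃ h ∈ H, h ∉ N ∧ h ^ q j ∈ N)
    (h2 : ∀ j, ∃ h ∈ H, h ∉ N ∧ h ^ q' j ∈ N) : H = ⊤ ∧ N = ⊥ := by
  have key : ∀ j, H.comap (MonoidHom.mulSingle X j) = ⊤ ∧ N.comap (MonoidHom.mulSingle X j) = ⊥ := by
    intro j
    apply hcrit j _ _ (Subgroup.comap_mono hNH)
    · intro h hh n hn
      rw [Subgroup.mem_comap] at hh hn ⊢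
      rw [map_mul, map_mul, map_inv]
      exact hnorm _ hh _ hn
    · exact critp_aux X hcop H N j (q j) (hq j) (h1 j)
    · exact critp_aux X hcop H N j (q' j) (hq' j) (h2 j)
  constructor
  · rw [eq_top_iff, ← Subgroup.pi_top Set.univ, Subgroup.pi_le_iff]
    intro j
    rw [Subgroup.map_le_iff_le_comap, (key j).1]
  · rw [eq_bot_iff]
    intro n hn
    rw [Subgroup.mem_bot]
    funext j
    obtain ⟨e, he, hcomp⟩ := comp X hcop j
    have h3 : n j ∈ N.comap (MonoidHom.mulSingle X j) := by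
      rw [Subgroup.mem_comap]
      change Pi.mulSingle j (n j) ∈ N
      rw [← hcomp]
      exact N.pow_mem hn e
    rw [(key j).2, Subgroup.mem_bot] at h3
    exact h3

end prod

end Cfsg.Agent.Lib.Helper68.Crit
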