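import Mathlib
import Cfsg.Agent.Lib.Helper68.Crit.Defs

set_option autoImplicit false

namespace Cfsg.Agent.Lib.Helper68.Crit

/-- a finite commutative domain, repackaged as a field -/
private theorem exf_aux (p r : ℕ) (hr : r.Prime) (S : Type) [CommRing S] [IsDomain S] [Finite S]
    [CharP S p] (z : S) (hz : orderOf z = r) (hgen : Subring.closure {z} = ⊤) :
    ∃ (K : Type) (_ : Field K) (_ : Fintype K) (ζ : Kˣ),
      CharP K p ∧ orderOf ζ = r ∧ Subring.closure {(ζ : K)} = ⊤ := by
  classical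
  let _ : Fintype S := Fintype.ofFinite S
  let F : Field S := Fintype.fieldOfDomain S
  have hz0 : z ≠ 0 := by
    rintro rfl
    rw [orderOf_zero] at hz
    exact hr.ne_zero hz.symm
  refine ⟨S, F, inferInstance, Units.mk0 z hz0, ‹CharP S p›, ?_, ?_⟩
  · rw [← orderOf_units, Units.val_mk0]
    exact hz
  · rw [Units.val_mk0]
    exact hgen

/-- [EXF] K₀ = GaloisField p (r-1) has p^(r-1) - 1 ≡ 0 mod r units (Fermat: `ZMod.pow_card_sub_one_eq_one`), so a unit ζ₀ of order r
(`exists_prime_orderOf_dvd_card`). K := ↥(Subring.closure {ζ₀}) is a finite domain, so a field (`Fintype.fieldOfDomain`), char p;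
ζ := ⟨ζ₀, _⟩ as a unit (ζ₀ ≠ 0), same order; closure {ζ} = ⊤ by `Subring.closure_induction`. -/
theorem exf (p r : ℕ) (hp : p.Prime) (hr : r.Prime) (hne : p ≠ r) :
    ∃ (K : Type) (_ : Field K) (_ : Fintype K) (ζ : Kˣ),
      CharP K p ∧ orderOf ζ = r ∧ Subring.closure {(ζ : K)} = ⊤ := by
  have : Fact p.Prime := ⟨hp⟩
  have : Fact r.Prime := ⟨hr⟩
  have hr1 : r - 1 ≠ 0 := by have := hr.two_le; omega
  have : Finite (GaloisField p (r - 1)) := by
    apply Nat.finite_of_card_ne_zero
    rw [GaloisField.card p (r - 1) hr1]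
    exact pow_ne_zero _ hp.ne_zero
  let _ : Fintype (GaloisField p (r - 1)) := Fintype.ofFinite _
  have hcard : Nat.card (GaloisField p (r - 1))ˣ = p ^ (r - 1) - 1 := by
    rw [Nat.card_units, GaloisField.card p (r - 1) hr1]
  have hdvd : r ∣ Nat.card (GaloisField p (r - 1))ˣ := by
    rw [hcard]
    have h1 : ((p : ZMod r)) ≠ 0 := by
      intro h
      rw [ZMod.natCast_eq_zero_iff] at h
      exact hne ((Nat.prime_dvd_prime_iff_eq hr hp).1 h).symm
    have h2 := ZMod.pow_card_sub_one_eq_one h1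
    have h3 : ((p ^ (r - 1) - 1 : ℕ) : ZMod r) = 0 := by
      rw [Nat.cast_sub (Nat.one_le_pow _ _ hp.pos), Nat.cast_pow, h2, Nat.cast_one, sub_self]
    exact (ZMod.natCast_eq_zero_iff _ _).1 h3
  obtain ⟨ζ₀, hζ₀⟩ := exists_prime_orderOf_dvd_card' r hdvd
  set S : Subring (GaloisField p (r - 1)) := Subring.closure {(ζ₀ : GaloisField p (r - 1))} with hS
  have hmem : (ζ₀ : GaloisField p (r - 1)) ∈ S := Subring.subset_closure rfl
  refine exf_aux p r hr S ⟨ζ₀, hmem⟩ ?_ ?_
  · have h1 : orderOf (⟨ζ₀, hmem⟩ : S) = orderOf (ζ₀ : GaloisField p (r - 1)) :=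
      (orderOf_injective (S.subtype : S →* GaloisField p (r - 1)) Subtype.val_injective
        (⟨ζ₀, hmem⟩ : S)).symm
    rw [h1, orderOf_units, hζ₀]
  · rw [eq_top_iff]
    rintro ⟨x, hx⟩ -
    induction hx using Subring.closure_induction with
    | mem y hy =>
      apply Subring.subset_closure
      rw [Set.mem_singleton_iff] at hy ⊢
      exact Subtype.ext hy
    | zero => exact Subring.zero_mem _
    | one => exact Subring.one_mem _
    | add a b ha hb iha ihb => exact Subring.add_mem _ iha ihb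
    | neg a ha iha => exact Subring.neg_mem _ iha
    | mul a b ha hb iha ihb => exact Subring.mul_mem _ iha ihb

end Cfsg.Agent.Lib.Helper68.Crit
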