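import Mathlib
import Cfsg.Agent.Lib.Helper68.Crit.Defs
import Cfsg.Agent.Lib.Helper68.Crit.SPEC1
import Cfsg.Agent.Lib.Helper68.Crit.RIGHT1

set_option autoImplicit false

namespace Cfsg.Agent.Lib.Helper68.Crit

open Cfsg.Agent.Lib.Helper34

variable (K : Type) [Field K] [Fintype K] (ζ : Kˣ) (p r : ℕ)

/-- [NCL1] x = inr ζ, y = ⟨ofAdd 1, ζ⁻¹⟩ have order r by spec1 (right ≠ 1 so order ≠ 1, p by right1); x * y = inl (ofAdd ζ), and
(x*y)^r = inl (ofAdd (r • ζ)) ≠ 1 since (r : K) ≠ 0. -/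
theorem ncl1 (hp : p.Prime) (hr : r.Prime) (hne : p ≠ r) [CharP K p] (hζ : orderOf ζ = r) :
    ¬ Cl r (XX K ζ) := by
  intro hcl
  have hcop : Nat.Coprime p r := (Nat.coprime_primes hp hr).2 hne
  set z : Subgroup.zpowers ζ := ⟨ζ, Subgroup.mem_zpowers ζ⟩ with hz
  have hzo : orderOf z = r := by rw [hz, Subgroup.orderOf_mk, hζ]
  have hz1 : z⁻¹ ≠ 1 := by
    intro h
    rw [inv_eq_one] at h
    rw [h, orderOf_one] at hzo
    exact hr.one_lt.ne hzo
  set x : XX K ζ := SemidirectProduct.inr z with hx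
  set y : XX K ζ := ⟨Multiplicative.ofAdd (1 : K), z⁻¹⟩ with hy
  have hxr : x ^ r = 1 := by
    rw [hx, ← map_pow, ← hzo, pow_orderOf_eq_one, map_one]
  have hyr : y ^ r = 1 := by
    rcases (spec1 K ζ p r hp hr hζ).1 y with h | h | h
    · rw [orderOf_eq_one_iff] at h
      exact absurd (congrArg SemidirectProduct.right h) hz1
    · have h1 : y ^ p = 1 := by rw [← h, pow_orderOf_eq_one]
      exact absurd (right1 K ζ p r hcop hζ y h1) hz1
    · rw [← h, pow_orderOf_eq_one]
  have hxy : x * y = SemidirectProduct.inl (Multiplicative.ofAdd (ζ : K)) := by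
    ext
    · rw [SemidirectProduct.mul_left, SemidirectProduct.left_inl]
      show (1 : Multiplicative K) * Multiplicative.ofAdd (z • (1 : K)) = _
      rw [one_mul]
      congr 1
      show (ζ : K) * 1 = ζ
      rw [mul_one]
    · rw [SemidirectProduct.mul_right, SemidirectProduct.right_inl]
      have : x.right * y.right = 1 := mul_inv_cancel z
      rw [this]
  have h1 := hcl x y hxr hyr
  rw [hxy, ← map_pow] at h1
  have h2 : Multiplicative.ofAdd (ζ : K) ^ r = 1 :=
    SemidirectProduct.inl_injective (by rw [h1, map_one])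
  have h3 : r • (ζ : K) = 0 := h2
  rw [nsmul_eq_mul] at h3
  rcases mul_eq_zero.1 h3 with h | h
  · rw [CharP.cast_eq_zero_iff K p] at h
    exact hne ((Nat.prime_dvd_prime_iff_eq hp hr).1 h)
  · exact ζ.ne_zero h

end Cfsg.Agent.Lib.Helper68.Crit
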