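import Mathlib
import Cfsg.Agent.Lib.Helper68.Crit.Defs
import Cfsg.Agent.Lib.Helper68.Crit.EXF
import Cfsg.Agent.Lib.Helper68.Crit.SPEC1
import Cfsg.Agent.Lib.Helper68.Crit.CARD1
import Cfsg.Agent.Lib.Helper68.Crit.RIGHT1
import Cfsg.Agent.Lib.Helper68.Crit.NCL1
import Cfsg.Agent.Lib.Helper68.Crit.CRIT1

set_option autoImplicit false

/-! Ladder CRIT (S3599): rung FDX. -/

namespace Cfsg.Agent.Lib.Helper68.Crit

open Cfsg.Agent.Lib.Helper34

/-- [FDX] -/
theorem fdx (p r : ℕ) (hp : p.Prime) (hr : r.Prime) (hne : p ≠ r) : Nonempty (FD p r) := by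
  obtain ⟨K, _, _, ζ, hch, hζ, hgen⟩ := exf p r hp hr hne
  have hcop : Nat.Coprime p r := (Nat.coprime_primes hp hr).2 hne
  obtain ⟨h1, h2, h3⟩ := spec1 K ζ p r hp hr hζ
  exact ⟨{ X := XX K ζ
           grp := inferInstance
           fin := Fintype.ofFinite _
           card := by
             obtain ⟨a, ha⟩ := card1 K ζ p r hp hζ
             refine ⟨a, ?_⟩
             rw [← ha]
             exact (@Nat.card_eq_fintype_card _ (Fintype.ofFinite _)).symm
           spec := h1
           exP := h2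
           exR := h3
           crit := crit1 K ζ p r hp hr hne hζ hgen
           clP := cl1 K ζ p r hcop hζ
           nclR := ncl1 K ζ p r hp hr hne hζ }⟩

end Cfsg.Agent.Lib.Helper68.Crit
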