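import Mathlib
import Cfsg.Agent.Lib.Helper68.Crit.Defs
import Cfsg.Agent.Lib.Helper68.Crit.FDX
import Cfsg.Agent.Lib.Helper68.Crit.CL
import Cfsg.Agent.Lib.Helper68.Crit.ORD
import Cfsg.Agent.Lib.Helper68.Crit.CRITP

set_option autoImplicit false

/-! Ladder CRIT (S3599): final assembly lemmas. -/

namespace Cfsg.Agent.Lib.Helper68.Crit

open Cfsg.Agent.Lib.Helper34

section final

theorem final_ne (i : Fin 2) : i ≠ 1 - i := by
  revert i; decide

theorem final_dvdP {p r : ℕ} (D : FD p r) : p ∣ Fintype.card D.X := by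
  obtain ⟨x, hx⟩ := D.exP
  have := orderOf_dvd_card (x := x)
  rwa [hx] at this

theorem final_dvdR {p r : ℕ} (D : FD p r) : r ∣ Fintype.card D.X := by
  obtain ⟨x, hx⟩ := D.exR
  have := orderOf_dvd_card (x := x)
  rwa [hx] at this

theorem final_ncl_eq {P P' : ℕ} (h : P = P') {X : Type} [Group X] (h' : ¬ Cl P X) : ¬ Cl P' X := by
  subst h; exact h'

theorem final_two (i : Fin 2) : (i = 0 ∧ 1 - i = 1) ∨ (i = 1 ∧ 1 - i = 0) := by
  revert i; decide

variable {s : ℕ} (p : Fin s → Fin 2 → ℕ) (hp : ∀ j i, (p j i).Prime)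
  (hinj : ∀ j i j' i', p j i = p j' i' → j = j' ∧ i = i')
  (D : ∀ j i, FD (p j i) (p j (1 - i))) (ε : Fin s → Fin 2)

include hp hinj in
theorem final_cop (i j : Fin s) (hij : i ≠ j) (a b : Fin 2) :
    Nat.Coprime (Fintype.card (D i a).X) (Fintype.card (D j b).X) := by
  obtain ⟨k, hk⟩ := (D i a).card
  obtain ⟨l, hl⟩ := (D j b).card
  rw [hk, hl]
  have h : ∀ a b : Fin 2, Nat.Coprime (p i a) (p j b) := by
    intro a b
    rw [Nat.coprime_primes (hp i a) (hp j b)]
    intro h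
    exact hij (hinj _ _ _ _ h).1
  exact Nat.Coprime.mul_left
    (Nat.Coprime.mul_right (Nat.Coprime.pow _ _ (h _ _)) (Nat.Coprime.pow_left _ (h _ _)))
    (Nat.Coprime.mul_right (Nat.Coprime.pow_right _ (h _ _)) (h _ _))

theorem final_ex (j : Fin s) (i' : Fin 2) : ∃ x : (D j (ε j)).X, orderOf x = p j i' := by
  rcases final_two (ε j) with ⟨h0, h1⟩ | ⟨h0, h1⟩ <;> rcases final_two i' with ⟨g0, -⟩ | ⟨g0, -⟩
  · obtain ⟨x, hx⟩ := (D j (ε j)).exP
    exact ⟨x, by rw [hx, h0, g0]⟩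
  · obtain ⟨x, hx⟩ := (D j (ε j)).exR
    exact ⟨x, by rw [hx, h1, g0]⟩
  · obtain ⟨x, hx⟩ := (D j (ε j)).exR
    exact ⟨x, by rw [hx, h1, g0]⟩
  · obtain ⟨x, hx⟩ := (D j (ε j)).exP
    exact ⟨x, by rw [hx, h0, g0]⟩

include hp hinj in
theorem final_spec : Set.range (orderOf : (∀ j, (D j (ε j)).X) → ℕ) =
    {m : ℕ | ∃ c : Fin s → ℕ, (∀ j, c j = 1 ∨ c j = p j 0 ∨ c j = p j 1) ∧ m = ∏ j, c j} := by
  have hcop : ∀ i j, i ≠ j → Nat.Coprime (Fintype.card (D i (ε i)).X) (Fintype.card (D j (ε j)).X) :=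
    fun i j hij => final_cop p hp hinj D i j hij _ _
  ext m
  constructor
  · rintro ⟨x, rfl⟩
    refine ⟨fun j => orderOf (x j), ?_, ord _ hcop x⟩
    intro j
    change orderOf (x j) = 1 ∨ orderOf (x j) = p j 0 ∨ orderOf (x j) = p j 1
    rcases final_two (ε j) with ⟨h0, h1⟩ | ⟨h0, h1⟩
    · rcases (D j (ε j)).spec (x j) with h | h | h
      · exact Or.inl h
      · exact Or.inr (Or.inl (by rw [h, h0]))
      · exact Or.inr (Or.inr (by rw [h, h1]))
    · rcases (D j (ε j)).spec (x j) with h | h | h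
      · exact Or.inl h
      · exact Or.inr (Or.inr (by rw [h, h0]))
      · exact Or.inr (Or.inl (by rw [h, h1]))
  · rintro ⟨c, hc, rfl⟩
    have : ∀ j, ∃ x : (D j (ε j)).X, orderOf x = c j := by
      intro j
      rcases hc j with h | h | h
      · exact ⟨1, by rw [orderOf_one, h]⟩
      · rw [h]; exact final_ex p D ε j 0
      · rw [h]; exact final_ex p D ε j 1
    choose x hx using this
    refine ⟨x, ?_⟩
    rw [ord _ hcop x]
    exact Finset.prod_congr rfl (fun j _ => hx j)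

include hp hinj in
theorem final_crit (H : Subgroup (∀ j, (D j (ε j)).X)) (N : Subgroup ↥H) [N.Normal]
    (hHN : H ≠ ⊤ ∨ N ≠ ⊥) : Set.range (orderOf : (↥H ⧸ N) → ℕ) ≠
    {m : ℕ | ∃ c : Fin s → ℕ, (∀ j, c j = 1 ∨ c j = p j 0 ∨ c j = p j 1) ∧ m = ∏ j, c j} := by
  intro heq
  have hcop : ∀ i j, i ≠ j → Nat.Coprime (Fintype.card (D i (ε i)).X) (Fintype.card (D j (ε j)).X) :=
    fun i j hij => final_cop p hp hinj D i j hij _ _
  have hex : ∀ j i', ∃ h ∈ H, h ∉ N.map H.subtype ∧ h ^ (p j i') ∈ N.map H.subtype := by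
    intro j i'
    apply conv H N _ (hp j i')
    have : p j i' ∈ Set.range (orderOf : (↥H ⧸ N) → ℕ) := by
      rw [heq]
      refine ⟨fun k => if k = j then p j i' else 1, ?_, ?_⟩
      · intro k
        by_cases hk : k = j
        · subst hk
          simp only [if_true]
          rcases final_two i' with ⟨g0, -⟩ | ⟨g0, -⟩
          · exact Or.inr (Or.inl (by rw [g0]))
          · exact Or.inr (Or.inr (by rw [g0]))
        · simp [hk]
      · simp
    exact this
  have hres := critp _ hcop (fun j => p j (ε j)) (fun j => p j (1 - ε j))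
    (fun j => by
      exact final_dvdP _)
    (fun j => by
      exact final_dvdR _)
    (fun j => (D j (ε j)).crit) H (N.map H.subtype) (Subgroup.map_subtype_le N)
    (by
      rintro h hh _ ⟨n, hn, rfl⟩
      refine ⟨⟨h, hh⟩ * n * ⟨h, hh⟩⁻¹, ?_, rfl⟩
      exact Subgroup.Normal.conj_mem inferInstance n hn _)
    (fun j => hex j _) (fun j => hex j _)
  rcases hHN with h | h
  · exact h hres.1
  · apply h
    exact (Subgroup.map_eq_bot_iff_of_injective N H.subtype_injective).1 hres.2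

include hp hinj in
theorem final_niso (ε' : Fin s → Fin 2) (hne : ε ≠ ε') :
    ¬ Nonempty ((∀ j, (D j (ε j)).X) ≃* (∀ j, (D j (ε' j)).X)) := by
  rintro ⟨e⟩
  obtain ⟨j, hj⟩ := Function.ne_iff.1 hne
  have h1 : Cl (p j (ε j)) (∀ j, (D j (ε j)).X) := by
    apply cl_pi
    intro k
    by_cases hk : k = j
    · subst hk
      exact (D k (ε k)).clP
    · apply cl_of_coprime
      have h2 : p j (ε j) ∣ Fintype.card (D j (ε j)).X := final_dvdP _
      exact Nat.Coprime.coprime_dvd_left h2 (final_cop p hp hinj D j k (Ne.symm hk) _ _)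
  have h2 : ¬ Cl (p j (ε j)) (∀ j, (D j (ε' j)).X) := by
    apply ncl_pi _ _ j
    have h3 : 1 - ε' j = ε j := by
      generalize ε j = a at hj
      generalize ε' j = b at hj
      revert a b; decide
    exact final_ncl_eq (by rw [h3]) (D j (ε' j)).nclR
  exact h2 (cl_congr _ e h1)

end final

end Cfsg.Agent.Lib.Helper68.Crit

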